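import Mathlib
import Cfsg.Agent.Lib.Helper4.TIQ.Defs
import Cfsg.Agent.Lib.Helper45.TIH.ON

/-!
# Project TIQ (S4151): packages [SUPINF], [PROD], [QC], [TRF]
-/

set_option autoImplicit false

namespace Cfsg.Agent.Lib.Helper45.TIQ

open Cfsg.Agent.Lib.Helper4.TIQ Cfsg.Agent.Lib.Helper45.TIH

universe u

/-- product formula for a normal subgroup -/
theorem tiq_supinf {G : Type u} [Group G] [Finite G] (O L : Subgroup G) [hO : O.Normal] :
    Nat.card ↥(O ⊔ L) * Nat.card ↥(O ⊓ L) = Nat.card O * Nat.card L := by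
  have h1 := tih_card_mul_relIndex O (O ⊔ L) le_sup_left
  rw [Subgroup.relIndex_sup_left] at h1
  have h2 := tih_card_mul_relIndex (O ⊓ L) L inf_le_right
  rw [Subgroup.inf_relIndex_right] at h2
  rw [← h1, ← h2]
  ring

theorem pkgSupInf : PkgSupInf.{u} := by
  intro G _ _ O L hO
  exact tiq_supinf O L

/-- order of a semidirect product inside `G` -/
theorem tiq_prod {G : Type u} [Group G] [Finite G] (A B : Subgroup G)
    (hAN : A ≤ Subgroup.normalizer (B : Set G)) (hAB : A ⊓ B = ⊥) :
    Nat.card ↥(A ⊔ B) = Nat.card A * Nat.card B := by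
  have hBN : B ≤ Subgroup.normalizer (B : Set G) := Subgroup.le_normalizer
  have hsupN : A ⊔ B ≤ Subgroup.normalizer (B : Set G) := sup_le hAN hBN
  have hnorm : (B.subgroupOf (Subgroup.normalizer (B : Set G))).Normal :=
    Subgroup.normal_in_normalizer
  have key := tiq_supinf (B.subgroupOf (Subgroup.normalizer (B : Set G)))
    (A.subgroupOf (Subgroup.normalizer (B : Set G)))
  rw [← Subgroup.subgroupOf_sup hBN hAN] at key
  have c1 : Nat.card ↥((B ⊔ A).subgroupOf (Subgroup.normalizer (B : Set G))) =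
      Nat.card ↥(A ⊔ B) := by
    rw [sup_comm]
    exact Nat.card_congr (Subgroup.subgroupOfEquivOfLe hsupN).toEquiv
  have c2 : Nat.card ↥(B.subgroupOf (Subgroup.normalizer (B : Set G))) = Nat.card B :=
    Nat.card_congr (Subgroup.subgroupOfEquivOfLe hBN).toEquiv
  have c3 : Nat.card ↥(A.subgroupOf (Subgroup.normalizer (B : Set G))) = Nat.card A :=
    Nat.card_congr (Subgroup.subgroupOfEquivOfLe hAN).toEquiv
  have c4 : B.subgroupOf (Subgroup.normalizer (B : Set G)) ⊓
      A.subgroupOf (Subgroup.normalizer (B : Set G)) = ⊥ := by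
    rw [eq_bot_iff]
    intro x hx
    rw [Subgroup.mem_inf, Subgroup.mem_subgroupOf, Subgroup.mem_subgroupOf] at hx
    have : (x : G) ∈ A ⊓ B := ⟨hx.2, hx.1⟩
    rw [hAB, Subgroup.mem_bot] at this
    rw [Subgroup.mem_bot]
    exact Subtype.ext this
  rw [c4, c1, c2, c3, Subgroup.card_bot, mul_one] at key
  rw [key, mul_comm]

theorem pkgProd : PkgProd.{u} := by
  intro G _ _ A B hAN hAB
  exact tiq_prod A B hAN hAB

theorem pkgQC : PkgQC.{u} := by
  intro G _ _ H Q hQN hQH hsup hcop
  have h1 : Nat.card ↥(Q ⊔ H) = Nat.card Q * Nat.card H := tiq_prod Q H hQN hQH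
  have h2 := tih_card_mul_relIndex H (Subgroup.normalizer (H : Set G)) Subgroup.le_normalizer
  rw [hsup] at h1
  have h3 : H.relIndex (Subgroup.normalizer (H : Set G)) = Nat.card Q := by
    have hpos : 0 < Nat.card H := Nat.card_pos
    have : Nat.card H * H.relIndex (Subgroup.normalizer (H : Set G)) =
        Nat.card H * Nat.card Q := by
      rw [h2, h1, mul_comm]
    exact Nat.eq_of_mul_eq_mul_left hpos this
  have h4 : (H.subgroupOf (Subgroup.normalizer (H : Set G))).index = Nat.card Q := h3
  rw [h4] at hcop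
  exact hcop.symm

theorem pkgTrf : PkgTrf.{u} := by
  intro K _ _ p _ P hPZ hPc
  have hP : Subgroup.normalizer ((P : Subgroup K) : Set K) ≤
      Subgroup.centralizer ((P : Subgroup K) : Set K) := by
    intro g _
    rw [Subgroup.mem_centralizer_iff]
    intro x hx
    have := hPZ hx
    rw [Subgroup.mem_center_iff] at this
    exact (this g).symm
  have hcompl := MonoidHom.ker_transferSylow_isComplement' P hP
  have hker : commutator K ≤ (MonoidHom.transferSylow P hP).ker := by
    rw [commutator_def, Subgroup.commutator_le]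
    intro a _ b _
    rw [MonoidHom.mem_ker, map_commutatorElement, commutatorElement_eq_one_iff_commute]
    apply Subtype.ext
    have h1 := hPZ (MonoidHom.transferSylow P hP a).2
    rw [Subgroup.mem_center_iff] at h1
    exact (h1 _).symm
  have hdisj := hcompl.disjoint
  rw [eq_bot_iff]
  intro x hx
  have hx1 : x ∈ (MonoidHom.transferSylow P hP).ker := hker (hPc hx)
  have := hdisj.le_bot (show x ∈ (MonoidHom.transferSylow P hP).ker ⊓ (P : Subgroup K) from ⟨hx1, hx⟩)
  exact this

end Cfsg.Agent.Lib.Helper45.TIQ
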